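import Cfsg.Agent.H10.Fi23T.Upper
import Cfsg.Agent.H10.Fi23T.LChk
import Cfsg.Agent.H10.Fi22T.Main
import Cfsg.Agent.H10.Cover

/-!
# The subgroup `⟨a, …, i⟩` of the presented Fi23 is a non-split double cover of Fi22 (helper10)

The group `P9` presented on `a, …, i` by the relators of Fi23 among these generators has order at
most `2 |Fi22|` (tower of coset enumerations), its image in Fi23 has at least that order
(stabiliser chain in the permutation representation on 31671 points), so the image is `P9`.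
`P9` maps onto Fi22 with a kernel of order two, and has no subgroup of index two.
-/

set_option autoImplicit false

namespace Cfsg.Agent.H10.Fi23T

open Cfsg.Agent.H35 Cfsg.Spor Cfsg.Agent.H10

/-- the images in Fi22 of the generators of Fi23 (`j` is sent to `1`) -/
noncomputable def f9 : Fi23.Gen → Fi22
  | .a => fi22_gen .a
  | .b => fi22_gen .b
  | .c => fi22_gen .c
  | .d => fi22_gen .d
  | .e => fi22_gen .e
  | .f => fi22_gen .f
  | .g => fi22_gen .g
  | .j => 1
  | .h => fi22_gen .h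
  | .i => fi22_gen .i

/-- the Coxeter labels among `a, …, i` -/
def lab9 (x y : Fi23.Gen) : ℕ := if x = .j ∨ y = .j then 0 else coxLabel Fi23.edges x y

/-- the generators kept -/
def g9l : List Fi23.Gen := [.a, .b, .c, .d, .e, .f, .g, .h, .i]

theorem g9_rws_eq : g9_rws = coxSplits g9l lab9 ++ [([.j], [])] := by decide

theorem f9_cox (x y : Fi23.Gen) : (f9 x * f9 y) ^ lab9 x y = 1 := by
  cases x <;> cases y <;> first | exact pow_zero _ | exact fi22_sat.1 _ _

theorem f9_inv (x : Fi23.Gen) : f9 x * f9 x = 1 := by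
  cases x <;> first | exact fi22_inv _ | exact one_mul 1

theorem f9_rws : ∀ r ∈ g9_rws, uw f9 (r.1 ++ r.2.reverse) = 1 := by
  rw [g9_rws_eq]
  intro r hr
  rw [List.mem_append] at hr
  rcases hr with hr | hr
  · exact splits_of_cox f9 g9l lab9 f9_cox r hr
  · rw [List.mem_singleton] at hr
    subst hr
    show uw f9 [.j] = 1
    rw [uw_singleton]
    rfl

theorem f9_prels : ∀ r ∈ g9_prels, uw f9 r.1 ^ r.2.1 = 1 := by
  have h := (fi22_list_of_sat _ fi22_sat).2
  intro r hr
  simp only [g9_prels, List.mem_cons, List.not_mem_nil, or_false] at hr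
  rcases hr with rfl | rfl
  · exact h ([.d, .c, .b, .d, .e, .f, .d, .h, .i], 10, 11) (by decide)
  · exact h ([.a, .b, .c, .d, .e, .f, .h], 9, 12) (by decide)

/-- the map onto Fi22 -/
theorem exists_psi : ∃ ψ : WG g9_rws g9_prels →* Fi22, Function.Surjective ψ := by
  obtain ⟨ψ, hψ⟩ := wg_UP g9_rws g9_prels f9 f9_inv f9_rws f9_prels
  refine ⟨ψ, ?_⟩
  rw [← MonoidHom.range_eq_top, eq_top_iff, ← fi22_closure, Subgroup.closure_le]
  rintro _ ⟨x, rfl⟩
  cases x
  · exact ⟨wgGen g9_rws g9_prels .a, hψ .a⟩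
  · exact ⟨wgGen g9_rws g9_prels .b, hψ .b⟩
  · exact ⟨wgGen g9_rws g9_prels .c, hψ .c⟩
  · exact ⟨wgGen g9_rws g9_prels .d, hψ .d⟩
  · exact ⟨wgGen g9_rws g9_prels .e, hψ .e⟩
  · exact ⟨wgGen g9_rws g9_prels .f, hψ .f⟩
  · exact ⟨wgGen g9_rws g9_prels .g, hψ .g⟩
  · exact ⟨wgGen g9_rws g9_prels .h, hψ .h⟩
  · exact ⟨wgGen g9_rws g9_prels .i, hψ .i⟩

theorem p9_gen_j : wgGen g9_rws g9_prels .j = 1 := by
  have h := wg_rws g9_rws g9_prels ([.j], []) (by decide)
  have h2 : uw (wgGen g9_rws g9_prels) [.j] = 1 := h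
  rw [uw_singleton] at h2
  exact h2

theorem p9_edge (x y : Fi23.Gen) (hm : ([x, y, x], [y, x, y]) ∈ g9_rws) :
    (wgGen g9_rws g9_prels x * wgGen g9_rws g9_prels y) ^ (2 * 1 + 1) = 1 := by
  have h := wg_rws g9_rws g9_prels _ hm
  exact (uw_altW (wgGen g9_rws g9_prels) 3 x y).symm.trans h

/-- `P9` has no subgroup of index two -/
theorem p9_no_index_two (L : Subgroup (WG g9_rws g9_prels)) : L.index ≠ 2 := by
  intro h
  have hn : L.Normal := Subgroup.normal_of_index_eq_two h
  have hinv : ∀ x, wgGen g9_rws g9_prels x * wgGen g9_rws g9_prels x = 1 := wg_inv _ _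
  have hab := p9_edge .a .b (by decide)
  have hbc := p9_edge .b .c (by decide)
  have hcd := p9_edge .c .d (by decide)
  have hde := p9_edge .d .e (by decide)
  have hef := p9_edge .e .f (by decide)
  have hfg := p9_edge .f .g (by decide)
  have hdh := p9_edge .d .h (by decide)
  have hhi := p9_edge .h .i (by decide)
  have hrel : uw (wgGen g9_rws g9_prels) [.a, .b, .c, .d, .e, .f, .h] ^ (2 * 4 + 1) = 1 :=
    wg_prels g9_rws g9_prels ([.a, .b, .c, .d, .e, .f, .h], 9, 13) (by decide)
  by_cases ha : wgGen g9_rws g9_prels .a ∈ L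
  · have hb := mem_normal_of_odd_edge L _ _ 1 (hinv .b) hab ha
    have hc := mem_normal_of_odd_edge L _ _ 1 (hinv .c) hbc hb
    have hd := mem_normal_of_odd_edge L _ _ 1 (hinv .d) hcd hc
    have he := mem_normal_of_odd_edge L _ _ 1 (hinv .e) hde hd
    have hf := mem_normal_of_odd_edge L _ _ 1 (hinv .f) hef he
    have hg := mem_normal_of_odd_edge L _ _ 1 (hinv .g) hfg hf
    have hh := mem_normal_of_odd_edge L _ _ 1 (hinv .h) hdh hd
    have hi := mem_normal_of_odd_edge L _ _ 1 (hinv .i) hhi hh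
    have htop : L = ⊤ := by
      rw [eq_top_iff, ← wg_closure g9_rws g9_prels, Subgroup.closure_le]
      rintro _ ⟨x, rfl⟩
      cases x
      · exact ha
      · exact hb
      · exact hc
      · exact hd
      · exact he
      · exact hf
      · exact hg
      · show wgGen g9_rws g9_prels .j ∈ L
        rw [p9_gen_j]
        exact L.one_mem
      · exact hh
      · exact hi
    rw [htop, Subgroup.index_top] at h
    exact absurd h (by norm_num)
  · have hb := not_mem_of_odd_edge L h _ _ 1 hab ha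
    have hc := not_mem_of_odd_edge L h _ _ 1 hbc hb
    have hd := not_mem_of_odd_edge L h _ _ 1 hcd hc
    have he := not_mem_of_odd_edge L h _ _ 1 hde hd
    have hf := not_mem_of_odd_edge L h _ _ 1 hef he
    have hh := not_mem_of_odd_edge L h _ _ 1 hdh hd
    have hw : uw (wgGen g9_rws g9_prels) [.a, .b, .c, .d, .e, .f, .h] ∉ L := by
      simp only [uw_cons, uw_nil, mul_one, Subgroup.mul_mem_iff_of_index_two h, ha, hb, hc, hd,
        he, hf, hh, iff_self, iff_true, not_false_eq_true]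
    have h1 : uw (wgGen g9_rws g9_prels) [.a, .b, .c, .d, .e, .f, .h] ^ (2 * 4 + 1) ∈ L := by
      rw [hrel]; exact L.one_mem
    rw [pow_odd_mem_iff_of_index_two L h] at h1
    exact hw h1

theorem gl_wsA_S : gl_wsA.all (fun w => w.all g9_S) = true := by decide
theorem gl_ws3_S : gl_ws3.all (fun w => w.all g9_S) = true := by decide
theorem gl_ws4_S : gl_ws4.all (fun w => w.all g9_S) = true := by decide
theorem gl_ws5_S : gl_ws5.all (fun w => w.all g9_S) = true := by decide

/-- a subgroup of Fi23 containing `a, …, i` has at least `2 |Fi22|` elements -/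
theorem range_lower (R : Subgroup Fi23) (hR : ∀ x, g9_S x = true → fi23_gen x ∈ R) :
    129123503308800 ≤ Nat.card R := by
  have hN : 0 < t1689_pd.N := by decide
  obtain ⟨ρ, hw, hst, htr⟩ := tc_core top_hyp hN
  have hfin : Finite Fi23 := top_bound.1
  let b1 : Fin t1689_pd.N := ⟨0, hN⟩
  let b2 : Fin t1689_pd.N := ⟨1, by decide⟩
  let b3 : Fin t1689_pd.N := ⟨2, by decide⟩
  let b4 : Fin t1689_pd.N := ⟨2812, by decide⟩
  let b5 : Fin t1689_pd.N := ⟨13401, by decide⟩
  let K3 : Subgroup Fi23 := R ⊓ stabOf ρ b2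
  let K4 : Subgroup Fi23 := K3 ⊓ stabOf ρ b3
  let K5 : Subgroup Fi23 := K4 ⊓ stabOf ρ b4
  let K6 : Subgroup Fi23 := K5 ⊓ stabOf ρ b5
  have hRw : ∀ w : List Fi23.Gen, w.all g9_S = true → uw fi23_gen w ∈ R := by
    intro w
    induction w with
    | nil => intro _; rw [uw_nil]; exact R.one_mem
    | cons x w ih =>
      intro h
      rw [List.all_cons, Bool.and_eq_true] at h
      rw [uw_cons]
      exact R.mul_mem (hR x h.1) (ih h.2)
  have hA : ∀ w ∈ gl_wsA, uw fi23_gen w ∈ R := fun w hwm =>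
    hRw w (List.all_eq_true.mp gl_wsA_S w hwm)
  have s2 : 28160 * Nat.card K3 ≤ Nat.card R := by
    have := level_step ρ R b2
      (Finset.univ.filter (fun p : Fin t1689_pd.N => Nat.ble 1 (fld 16 (gl_lab p.val) 0) = true))
      (fun x hx => by
        rw [Finset.mem_filter, Nat.ble_eq] at hx
        exact lvl_orbit fi23_gen ρ hw R gl_lab 0 gl_wsA b2 hA
          gl_lvlA _ x rfl hx.2)
    rw [card_filter_fin (fun i => Nat.ble 1 (fld 16 (gl_lab i) 0)) t1689_pd.N 15 (by decide)] at this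
    rw [show cntR (fun i => Nat.ble 1 (fld 16 (gl_lab i) 0)) t1689_pd.N 15 0 = 28160 from gl_cntA]
      at this
    exact this
  have hK3 : ∀ w ∈ gl_ws3, uw fi23_gen w ∈ K3 := fun w hwm =>
    ⟨hRw w (List.all_eq_true.mp gl_ws3_S w hwm),
      fixOK_mem fi23_gen ρ hw gl_ws3 _ gl_fix3 w hwm b2 (by decide)⟩
  have s3 : 3159 * Nat.card K4 ≤ Nat.card K3 := by
    have := level_step ρ K3 b3
      (Finset.univ.filter (fun p : Fin t1689_pd.N => Nat.ble 1 (fld 16 (gl_lab p.val) 4) = true))
      (fun x hx => by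
        rw [Finset.mem_filter, Nat.ble_eq] at hx
        exact lvl_orbit fi23_gen ρ hw K3 gl_lab 4 gl_ws3 b3 hK3
          gl_lvl3 _ x rfl hx.2)
    rw [card_filter_fin (fun i => Nat.ble 1 (fld 16 (gl_lab i) 4)) t1689_pd.N 15 (by decide)] at this
    rw [show cntR (fun i => Nat.ble 1 (fld 16 (gl_lab i) 4)) t1689_pd.N 15 0 = 3159 from gl_cnt3]
      at this
    exact this
  have hK4 : ∀ w ∈ gl_ws4, uw fi23_gen w ∈ K4 := fun w hwm =>
    ⟨⟨hRw w (List.all_eq_true.mp gl_ws4_S w hwm),
      fixOK_mem fi23_gen ρ hw gl_ws4 _ gl_fix4 w hwm b2 (by decide)⟩,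
      fixOK_mem fi23_gen ρ hw gl_ws4 _ gl_fix4 w hwm b3 (by decide)⟩
  have s4 : 15120 * Nat.card K5 ≤ Nat.card K4 := by
    have := level_step ρ K4 b4
      (Finset.univ.filter (fun p : Fin t1689_pd.N => Nat.ble 1 (fld 16 (gl_lab p.val) 6) = true))
      (fun x hx => by
        rw [Finset.mem_filter, Nat.ble_eq] at hx
        exact lvl_orbit fi23_gen ρ hw K4 gl_lab 6 gl_ws4 b4 hK4
          gl_lvl4 _ x rfl hx.2)
    rw [card_filter_fin (fun i => Nat.ble 1 (fld 16 (gl_lab i) 6)) t1689_pd.N 15 (by decide)] at this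
    rw [show cntR (fun i => Nat.ble 1 (fld 16 (gl_lab i) 6)) t1689_pd.N 15 0 = 15120 from gl_cnt4]
      at this
    exact this
  have hK5 : ∀ w ∈ gl_ws5, uw fi23_gen w ∈ K5 := fun w hwm =>
    ⟨⟨⟨hRw w (List.all_eq_true.mp gl_ws5_S w hwm),
      fixOK_mem fi23_gen ρ hw gl_ws5 _ gl_fix5 w hwm b2 (by decide)⟩,
      fixOK_mem fi23_gen ρ hw gl_ws5 _ gl_fix5 w hwm b3 (by decide)⟩,
      fixOK_mem fi23_gen ρ hw gl_ws5 _ gl_fix5 w hwm b4 (by decide)⟩
  have s5 : 96 * Nat.card K6 ≤ Nat.card K5 := by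
    have := level_step ρ K5 b5
      (Finset.univ.filter (fun p : Fin t1689_pd.N => Nat.ble 1 (fld 16 (gl_lab p.val) 8) = true))
      (fun x hx => by
        rw [Finset.mem_filter, Nat.ble_eq] at hx
        exact lvl_orbit fi23_gen ρ hw K5 gl_lab 8 gl_ws5 b5 hK5
          gl_lvl5 _ x rfl hx.2)
    rw [card_filter_fin (fun i => Nat.ble 1 (fld 16 (gl_lab i) 8)) t1689_pd.N 15 (by decide)] at this
    rw [show cntR (fun i => Nat.ble 1 (fld 16 (gl_lab i) 8)) t1689_pd.N 15 0 = 96 from gl_cnt5]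
      at this
    exact this
  have hKpos : 0 < Nat.card K6 := Nat.card_pos
  omega

/-- the image of `P9` in Fi23 is a non-split double cover of Fi22 -/
theorem cover_range (φ : WG g9_rws g9_prels →* Fi23)
    (hφ : ∀ x, g9_S x = true → φ (wgGen g9_rws g9_prels x) = fi23_gen x) :
    Cfsg.IsNonsplitDoubleCover φ.range Fi22 := by
  have hfinP := g9_bound.1
  have hub : Nat.card (WG g9_rws g9_prels) ≤ 129123503308800 := le_trans g9_bound.2 (by norm_num)
  have hlow := range_lower φ.range (fun x hx => ⟨_, hφ x hx⟩)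
  have hfin : Finite Fi23 := top_bound.1
  have hle : Nat.card φ.range ≤ Nat.card (WG g9_rws g9_prels) :=
    Nat.card_le_card_of_surjective φ.rangeRestrict φ.rangeRestrict_surjective
  have hcR : Nat.card φ.range = 129123503308800 := by omega
  have hbij : Function.Bijective φ.rangeRestrict :=
    φ.rangeRestrict_surjective.bijective_of_nat_card_le (by omega)
  let e : WG g9_rws g9_prels ≃* φ.range := MulEquiv.ofBijective φ.rangeRestrict hbij
  obtain ⟨ψ, hψ⟩ := exists_psi
  have hfin22 : Finite Fi22 := Fi22T.top_bound.1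
  have hsimple : IsSimpleGroup Fi22 := Fi22T.fi22_main.2
  apply nonsplitDoubleCover_of (ψ.comp e.symm.toMonoidHom)
  · exact hψ.comp e.symm.surjective
  · exact center_eq_bot_of_simple (by rw [Fi22T.fi22_main.1]; norm_num)
  · rw [hcR, Fi22T.fi22_main.1]
  · intro L hL
    apply p9_no_index_two (L.comap φ.rangeRestrict)
    rw [Subgroup.index_comap_of_surjective L φ.rangeRestrict_surjective]
    exact hL

/-- the subgroup generated by `a, …, i` -/
theorem cover_main : Cfsg.IsNonsplitDoubleCover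
    ((Subgroup.closure ({Fi23.a, Fi23.b, Fi23.c, Fi23.d, Fi23.e, Fi23.f, Fi23.g, Fi23.h, Fi23.i} :
      Set (FreeGroup Fi23.Gen))).map
      (PresentedGroup.mk (coxRelators Fi23.edges ∪ {r | r ∈ Fi23.extra}))) Fi22 := by
  obtain ⟨φ, hφ⟩ := sub_hom g9_S fi23_gen fi23_inv fi23_rws fi23_prels
    g9_rws g9_prels (fi23_list_of_sat _ fi23_sat).1 (fi23_list_of_sat _ fi23_sat).2 (by decide)
  have hS : (Subgroup.closure ({Fi23.a, Fi23.b, Fi23.c, Fi23.d, Fi23.e, Fi23.f, Fi23.g, Fi23.h,
      Fi23.i} : Set (FreeGroup Fi23.Gen))).map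
      (PresentedGroup.mk (coxRelators Fi23.edges ∪ {r | r ∈ Fi23.extra})) = φ.range := by
    apply le_antisymm
    · rw [MonoidHom.map_closure, Subgroup.closure_le]
      rintro _ ⟨w, hw, rfl⟩
      simp only [Set.mem_insert_iff, Set.mem_singleton_iff] at hw
      rcases hw with rfl | rfl | rfl | rfl | rfl | rfl | rfl | rfl | rfl
      · exact ⟨_, hφ .a (by decide)⟩
      · exact ⟨_, hφ .b (by decide)⟩
      · exact ⟨_, hφ .c (by decide)⟩
      · exact ⟨_, hφ .d (by decide)⟩
      · exact ⟨_, hφ .e (by decide)⟩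
      · exact ⟨_, hφ .f (by decide)⟩
      · exact ⟨_, hφ .g (by decide)⟩
      · exact ⟨_, hφ .h (by decide)⟩
      · exact ⟨_, hφ .i (by decide)⟩
    · rw [MonoidHom.range_eq_map, ← wg_closure g9_rws g9_prels, MonoidHom.map_closure,
        Subgroup.closure_le]
      rintro _ ⟨_, ⟨x, rfl⟩, rfl⟩
      have key : ∀ y : Fi23.Gen, g9_S y = true → φ (wgGen g9_rws g9_prels y) ∈
          (Subgroup.closure ({Fi23.a, Fi23.b, Fi23.c, Fi23.d, Fi23.e, Fi23.f, Fi23.g, Fi23.h,
            Fi23.i} : Set (FreeGroup Fi23.Gen))).map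
            (PresentedGroup.mk (coxRelators Fi23.edges ∪ {r | r ∈ Fi23.extra})) := by
        intro y hy
        rw [hφ y hy]
        refine ⟨FreeGroup.of y, Subgroup.subset_closure ?_, rfl⟩
        revert hy
        cases y <;> intro hy <;> first | (exact absurd hy (by decide)) | simp
      cases x
      · exact key .a (by decide)
      · exact key .b (by decide)
      · exact key .c (by decide)
      · exact key .d (by decide)
      · exact key .e (by decide)
      · exact key .f (by decide)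
      · exact key .g (by decide)
      · show φ (wgGen g9_rws g9_prels .j) ∈ _
        rw [p9_gen_j, map_one]
        exact Subgroup.one_mem _
      · exact key .h (by decide)
      · exact key .i (by decide)
  rw [hS]
  exact cover_range φ hφ

end Cfsg.Agent.H10.Fi23T
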