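import Cfsg.Agent.H10.Fi23T.Cover
import Cfsg.Agent.H10.Fi23T.Main
import Cfsg.Agent.H10.Fi23T.TPow
import Cfsg.Agent.H10.ThreeTrans
import Cfsg.Agent.H10.Block

/-!
# The 3-transpositions of the presented Fi23 (helper10)

The element `t = (bcdefgh)^9` of the presented Fi23 is the central involution of the subgroup
`⟨a, …, i⟩ = 2.Fi22`, which is its centraliser; its class has 31671 elements and is a class of
3-transpositions.
-/

set_option autoImplicit false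

namespace Cfsg.Agent.H10.Fi23T

open Cfsg.Agent.H35 Cfsg.Spor Cfsg.Agent.H10

/-- the 3-transposition -/
noncomputable def t3 : Fi23 := uw fi23_gen gt_tw

/-- a double coset representative: `t3 * t3 ^ t3A` has order three -/
noncomputable def t3A : Fi23 := (uw fi23_gen gt_uA)⁻¹

/-- a double coset representative: `t3 * t3 ^ t3B` has order two -/
noncomputable def t3B : Fi23 := (uw fi23_gen gt_uB)⁻¹

theorem uw_conjA : uw fi23_gen (gt_uA.reverse ++ gt_tw ++ gt_uA) = t3A * t3 * t3A⁻¹ := by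
  rw [uw_append, uw_append, uw_reverse _ fi23_inv]
  unfold t3A t3
  rw [inv_inv]

theorem uw_conjB : uw fi23_gen (gt_uB.reverse ++ gt_tw ++ gt_uB) = t3B * t3 * t3B⁻¹ := by
  rw [uw_append, uw_append, uw_reverse _ fi23_inv]
  unfold t3B t3
  rw [inv_inv]

/-- the map onto Fi22, with its values -/
theorem exists_psi_val : ∃ ψ : WG g9_rws g9_prels →* Fi22,
    (∀ x, ψ (wgGen g9_rws g9_prels x) = f9 x) ∧ Function.Surjective ψ := by
  obtain ⟨ψ, hψ⟩ := wg_UP g9_rws g9_prels f9 f9_inv f9_rws f9_prels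
  refine ⟨ψ, hψ, ?_⟩
  rw [← MonoidHom.range_eq_top, eq_top_iff, ← fi22_closure, Subgroup.closure_le]
  rintro _ ⟨x, rfl⟩
  cases x
  · exact ⟨wgGen g9_rws g9_prels .a, hψ .a⟩
  · exact ⟨wgGen g9_rws g9_prels .b, hψ .b⟩
  · exact ⟨wgGen g9_rws g9_prels .c, hψ .c⟩
  · exact ⟨wgGen g9_rws g9_prels .d, hψ .d⟩
  · exact ⟨wgGen g9_rws g9_prels .e, hψ .e⟩
  · exact ⟨wgGen g9_rws g9_prels .f, hψ .f⟩
  · exact ⟨wgGen g9_rws g9_prels .g, hψ .g⟩
  · exact ⟨wgGen g9_rws g9_prels .h, hψ .h⟩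
  · exact ⟨wgGen g9_rws g9_prels .i, hψ .i⟩

theorem gt_tw_eq :
    gt_tw = (List.replicate 9 [Fi23.Gen.b, .c, .d, .e, .f, .g, .h]).flatten := by decide

/-- the word of the 3-transposition is trivial in Fi22 -/
theorem f9_tw : uw f9 gt_tw = 1 := by
  rw [gt_tw_eq, uw_rep]
  have h := (fi22_list_of_sat _ fi22_sat).2 ([.b, .c, .d, .e, .f, .g, .h], 9, 13) (by decide)
  have e : uw f9 [Fi23.Gen.b, .c, .d, .e, .f, .g, .h] =
      uw fi22_gen [Fi22.Gen.b, .c, .d, .e, .f, .g, .h] := rfl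
  rw [e]
  exact h

/-- the facts about the 3-transposition read off the permutation representation -/
theorem trans_core : t3 ≠ 1 ∧ t3 ^ 2 = 1 ∧ (t3 * (t3A * t3 * t3A⁻¹)) ^ 3 = 1 ∧
    (t3 * (t3B * t3 * t3B⁻¹)) ^ 2 = 1 ∧
    (∃ φ : WG g9_rws g9_prels →* Fi23, Function.Injective φ ∧
      φ.range = Subgroup.centralizer ({t3} : Set Fi23)) ∧
    Nat.card (WG g9_rws g9_prels) = 129123503308800 ∧
    (Subgroup.centralizer ({t3} : Set Fi23)).index = 31671 ∧
    ∀ g : Fi23, g ∈ Subgroup.centralizer ({t3} : Set Fi23) ∨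
      (∃ h ∈ Subgroup.centralizer ({t3} : Set Fi23),
        ∃ s ∈ Subgroup.centralizer ({t3} : Set Fi23), g = h * t3A * s) ∨
      (∃ h ∈ Subgroup.centralizer ({t3} : Set Fi23),
        ∃ s ∈ Subgroup.centralizer ({t3} : Set Fi23), g = h * t3B * s) := by
  have hN : 0 < t1689_pd.N := by decide
  obtain ⟨ρ, hw, hst, htr⟩ := tc_core top_hyp hN
  have hfin : Finite Fi23 := top_bound.1
  have hsim : IsSimpleGroup Fi23 := main.2
  have hcard : Nat.card Fi23 = 4089470473293004800 := main.1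
  have hb2 : 1 < t1689_pd.N := by decide
  have hrB : 52 < t1689_pd.N := by decide
  -- the representation is faithful
  have hinj : ∀ g : Fi23, ρ g = 1 → g = 1 := by
    intro g hg
    rcases hsim.eq_bot_or_eq_top_of_normal ρ.ker inferInstance with h | h
    · have hm : g ∈ ρ.ker := hg
      rw [h, Subgroup.mem_bot] at hm
      exact hm
    · exfalso
      obtain ⟨g', hg'⟩ := htr ⟨1, hb2⟩
      have hm : g' ∈ ρ.ker := by rw [h]; exact Subgroup.mem_top _
      rw [MonoidHom.mem_ker] at hm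
      rw [hm] at hg'
      have h01 : (0 : ℕ) = 1 := congrArg Fin.val hg'
      exact absurd h01 (by norm_num)
  -- word identities
  have ht2 : t3 ^ 2 = 1 := by
    have h := hinj (uw fi23_gen gt_pw0 ^ 2) (by
      rw [map_pow]
      exact powCol_sound fi23_gen ρ hw gt_col 0 2 gt_pw0 (fun p hp => gt_pow0 p hp))
    rw [gt_pw0_eq] at h
    exact h
  have hA3 : (t3 * (t3A * t3 * t3A⁻¹)) ^ 3 = 1 := by
    have h := hinj (uw fi23_gen gt_pw1 ^ 3) (by
      rw [map_pow]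
      exact powCol_sound fi23_gen ρ hw gt_col 1 3 gt_pw1 (fun p hp => gt_pow1 p hp))
    rw [gt_pw1_eq, uw_append, uw_conjA] at h
    exact h
  have hB2 : (t3 * (t3B * t3 * t3B⁻¹)) ^ 2 = 1 := by
    have h := hinj (uw fi23_gen gt_pw2 ^ 2) (by
      rw [map_pow]
      exact powCol_sound fi23_gen ρ hw gt_col 2 2 gt_pw2 (fun p hp => gt_pow2 p hp))
    rw [gt_pw2_eq, uw_append, uw_conjB] at h
    exact h
  have ht1 : t3 ≠ 1 := by
    intro h
    have h1 := hw gt_tw ⟨1, hb2⟩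
    have h2 : uw fi23_gen gt_tw = 1 := h
    rw [h2, map_one, inv_one] at h1
    exact gt_t_ne h1
  -- the subgroup `⟨a, …, i⟩` is the point stabiliser
  obtain ⟨φ, hφ⟩ := sub_hom g9_S fi23_gen fi23_inv fi23_rws fi23_prels
    g9_rws g9_prels (fi23_list_of_sat _ fi23_sat).1 (fi23_list_of_sat _ fi23_sat).2 (by decide)
  have hfinP := g9_bound.1
  have hub : Nat.card (WG g9_rws g9_prels) ≤ 129123503308800 := le_trans g9_bound.2 (by norm_num)
  have hlow := range_lower φ.range (fun x hx => ⟨_, hφ x hx⟩)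
  have hle : Nat.card φ.range ≤ Nat.card (WG g9_rws g9_prels) :=
    Nat.card_le_card_of_surjective φ.rangeRestrict φ.rangeRestrict_surjective
  have hcR : Nat.card φ.range = 129123503308800 := by omega
  have hcP : Nat.card (WG g9_rws g9_prels) = 129123503308800 := by omega
  have hbij : Function.Bijective φ.rangeRestrict :=
    φ.rangeRestrict_surjective.bijective_of_nat_card_le (by omega)
  have hφinj : Function.Injective φ := by
    intro x y hxy
    exact hbij.1 (Subtype.ext hxy)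
  have hSle : stabOf ρ ⟨0, hN⟩ ≤ φ.range := by
    have h0 : Hs ≤ φ.range :=
      swGrp_le_range _ (wgGen g9_rws g9_prels) g9_S φ hφ t1689_sw (by decide)
    rw [hst] at h0
    exact h0
  have hidx : (stabOf ρ ⟨0, hN⟩).index = 31671 := by
    rw [index_stabOf ρ ⟨0, hN⟩ htr, Fintype.card_fin]
    rfl
  have hcS : Nat.card (stabOf ρ ⟨0, hN⟩) = 129123503308800 := by
    have h := Subgroup.card_mul_index (stabOf ρ ⟨0, hN⟩)
    rw [hidx, hcard] at h
    omega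
  have hRS : stabOf ρ ⟨0, hN⟩ = φ.range :=
    Subgroup.eq_of_le_of_card_ge hSle (by rw [hcR, hcS])
  -- `t3` is central in the stabiliser
  obtain ⟨ψ, hψv, hψs⟩ := exists_psi_val
  have hfin22 : Finite Fi22 := Fi22T.top_bound.1
  have hker : Nat.card ψ.ker = 2 := by
    have h1 := Subgroup.card_mul_index ψ.ker
    rw [Subgroup.index_ker, MonoidHom.range_eq_top.mpr hψs, Subgroup.card_top, hcP,
      Fi22T.fi22_main.1] at h1
    omega
  have hzc : uw (wgGen g9_rws g9_prels) gt_tw ∈ Subgroup.center (WG g9_rws g9_prels) := by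
    apply le_center_of_card_two ψ.ker hker
    rw [MonoidHom.mem_ker, uw_map]
    have hf : (fun x => ψ (wgGen g9_rws g9_prels x)) = f9 := funext hψv
    rw [hf]
    exact f9_tw
  have htφ : φ (uw (wgGen g9_rws g9_prels) gt_tw) = t3 :=
    hom_uw_of_all fi23_gen (wgGen g9_rws g9_prels) g9_S φ hφ gt_tw (by decide)
  have hcent : ∀ s ∈ φ.range, s * t3 * s⁻¹ = t3 := by
    obtain ⟨z, hz1, hz2⟩ : ∃ z : WG g9_rws g9_prels,
        z ∈ Subgroup.center (WG g9_rws g9_prels) ∧ φ z = t3 := ⟨_, hzc, htφ⟩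
    rintro _ ⟨x, rfl⟩
    have hx := Subgroup.mem_center_iff.mp hz1 x
    have h1 : φ x * φ z = φ z * φ x := by rw [← map_mul, hx, map_mul]
    rw [hz2] at h1
    rw [h1, mul_inv_cancel_right]
  have hcentS : ∀ s ∈ stabOf ρ ⟨0, hN⟩, s ∈ Subgroup.centralizer ({t3} : Set Fi23) := by
    intro s hs
    rw [hRS] at hs
    exact mem_centralizer_of_conj_eq t3 s (hcent s hs)
  -- double cosets
  have hstA : ∀ w ∈ gl_wsA, uw fi23_gen w ∈ stabOf ρ ⟨0, hN⟩ := fun w hwm =>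
    fixOK_mem fi23_gen ρ hw gl_wsA _ gl_fixA w hwm ⟨0, hN⟩ (by show (0 : ℕ) ∈ _; decide)
  have hstB : ∀ w ∈ gl_wsB, uw fi23_gen w ∈ stabOf ρ ⟨0, hN⟩ := fun w hwm =>
    fixOK_mem fi23_gen ρ hw gl_wsB _ gl_fixB w hwm ⟨0, hN⟩ (by show (0 : ℕ) ∈ _; decide)
  have hOA : ∀ x : Fin t1689_pd.N, 1 ≤ fld 16 (gl_lab x.val) 0 →
      ∃ g ∈ stabOf ρ ⟨0, hN⟩, ρ g ⟨1, hb2⟩ = x := fun x hx =>
    lvl_orbit fi23_gen ρ hw (stabOf ρ ⟨0, hN⟩) gl_lab 0 gl_wsA ⟨1, hb2⟩ hstA gl_lvlA _ x rfl hx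
  have hOB : ∀ x : Fin t1689_pd.N, 1 ≤ fld 16 (gl_lab x.val) 2 →
      ∃ g ∈ stabOf ρ ⟨0, hN⟩, ρ g ⟨52, hrB⟩ = x := fun x hx =>
    lvl_orbit fi23_gen ρ hw (stabOf ρ ⟨0, hN⟩) gl_lab 2 gl_wsB ⟨52, hrB⟩ hstB gl_lvlB _ x rfl hx
  have hgA : ρ t3A ⟨0, hN⟩ = ⟨1, hb2⟩ := by
    have h1 := hw gt_uA ⟨0, hN⟩
    apply Fin.ext
    show ((ρ ((uw fi23_gen gt_uA)⁻¹)) ⟨0, hN⟩).val = 1
    rw [map_inv, ← h1]
    exact gt_uA_walk
  have hgB : ρ t3B ⟨0, hN⟩ = ⟨52, hrB⟩ := by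
    have h1 := hw gt_uB ⟨0, hN⟩
    apply Fin.ext
    show ((ρ ((uw fi23_gen gt_uB)⁻¹)) ⟨0, hN⟩).val = 52
    rw [map_inv, ← h1]
    exact gt_uB_walk
  have hdc0 : ∀ g : Fi23, g ∈ stabOf ρ ⟨0, hN⟩ ∨
      (∃ h ∈ stabOf ρ ⟨0, hN⟩, ∃ s ∈ stabOf ρ ⟨0, hN⟩, g = h * t3A * s) ∨
      (∃ h ∈ stabOf ρ ⟨0, hN⟩, ∃ s ∈ stabOf ρ ⟨0, hN⟩, g = h * t3B * s) := by
    intro g
    have hc := allR_all _ _ 15 (by decide) gl_all (ρ g ⟨0, hN⟩).val (ρ g ⟨0, hN⟩).isLt
    rw [Bool.or_eq_true, Bool.or_eq_true, Nat.beq_eq, Nat.ble_eq, Nat.ble_eq] at hc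
    rcases hc with hc | hc | hc
    · left
      rw [mem_stabOf]
      exact Fin.ext hc
    · right; left
      obtain ⟨h, hh, e⟩ := hOA _ hc
      refine ⟨h, hh, (h * t3A)⁻¹ * g, ?_, by group⟩
      rw [mem_stabOf, map_mul, map_inv, Equiv.Perm.mul_apply, Equiv.Perm.inv_eq_iff_eq, map_mul,
        Equiv.Perm.mul_apply, hgA, e]
    · right; right
      obtain ⟨h, hh, e⟩ := hOB _ hc
      refine ⟨h, hh, (h * t3B)⁻¹ * g, ?_, by group⟩
      rw [mem_stabOf, map_mul, map_inv, Equiv.Perm.mul_apply, Equiv.Perm.inv_eq_iff_eq, map_mul,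
        Equiv.Perm.mul_apply, hgB, e]
  -- the centraliser
  have hC : Subgroup.centralizer ({t3} : Set Fi23) = stabOf ρ ⟨0, hN⟩ := by
    apply le_antisymm
    · intro g hg
      rcases hdc0 g with h | ⟨h, hh, s, hs, rfl⟩ | ⟨h, hh, s, hs, rfl⟩
      · exact h
      · exfalso
        have hA' : t3A ∈ Subgroup.centralizer ({t3} : Set Fi23) := by
          have e : t3A = h⁻¹ * (h * t3A * s) * s⁻¹ := by group
          rw [e]
          exact Subgroup.mul_mem _ (Subgroup.mul_mem _ (Subgroup.inv_mem _ (hcentS h hh)) hg)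
            (Subgroup.inv_mem _ (hcentS s hs))
        have h3 := conj_eq_of_mem_centralizer t3 t3A hA'
        have h4 := hw (gt_uA.reverse ++ gt_tw ++ gt_uA) ⟨0, hN⟩
        have h5 := hw gt_tw ⟨0, hN⟩
        rw [uw_conjA, h3] at h4
        exact gt_tA_ne (h4.trans h5.symm)
      · exfalso
        have hB' : t3B ∈ Subgroup.centralizer ({t3} : Set Fi23) := by
          have e : t3B = h⁻¹ * (h * t3B * s) * s⁻¹ := by group
          rw [e]
          exact Subgroup.mul_mem _ (Subgroup.mul_mem _ (Subgroup.inv_mem _ (hcentS h hh)) hg)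
            (Subgroup.inv_mem _ (hcentS s hs))
        have h3 := conj_eq_of_mem_centralizer t3 t3B hB'
        have h4 := hw (gt_uB.reverse ++ gt_tw ++ gt_uB) ⟨1, hb2⟩
        have h5 := hw gt_tw ⟨1, hb2⟩
        rw [uw_conjB, h3] at h4
        exact gt_tB_ne (h4.trans h5.symm)
    · exact hcentS
  refine ⟨ht1, ht2, hA3, hB2, ⟨φ, hφinj, by rw [hC, hRS]⟩, hcP, by rw [hC]; exact hidx, ?_⟩
  rw [hC]
  exact hdc0

/-- the class of 3-transpositions of the presented Fi23 -/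
theorem fi23_three_trans : ∃ D : Set Fi23, Cfsg.IsThreeTranspositionClass D ∧
    Nat.card D = 31671 ∧
    ∀ d ∈ D, Cfsg.IsNonsplitDoubleCover (Subgroup.centralizer ({d} : Set Fi23)) Fi22 := by
  obtain ⟨ht1, ht2, hA3, hB2, ⟨φ, hφinj, hφr⟩, hcP, hidx, hdc⟩ := trans_core
  have hsim : IsSimpleGroup Fi23 := main.2
  refine ⟨conjugatesOf t3, threeTranspositionClass_of t3 ht1 ht2 t3A t3B hA3 hB2 hdc, ?_, ?_⟩
  · rw [card_conjugatesOf_eq_index, hidx]
  · intro d hd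
    obtain ⟨c, rfl⟩ := (mem_conjOf_iff t3 d).mp hd
    obtain ⟨e⟩ := exists_equiv_centralizer_conj φ hφinj t3 c hφr
    obtain ⟨ψ, hψ⟩ := exists_psi
    have hfin22 : Finite Fi22 := Fi22T.top_bound.1
    have hsimple : IsSimpleGroup Fi22 := Fi22T.fi22_main.2
    refine nonsplitDoubleCover_of_equiv e ψ hψ
      (center_eq_bot_of_simple (by rw [Fi22T.fi22_main.1]; norm_num)) ?_ p9_no_index_two
    rw [hcP, Fi22T.fi22_main.1]

end Cfsg.Agent.H10.Fi23T
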